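import Mathlib
set_option linter.all false

-- part: H272/TIInv/Basic
section
/-!
TI-subgroups `M` with `N(M) = M · C(z)`, `z ∈ N(M)` an involution, such that no involution
centralises a nontrivial element of `M` (Bender's set-up for the Brauer–Suzuki–Wall theorem).
-/

set_option autoImplicit false

namespace Cfsg.Agent.H272.TIInv

open Subgroup

variable {G : Type*} [Group G] {M : Subgroup G} {z : G}

structure Hyp (M : Subgroup G) (z : G) : Prop where
  ne : M ≠ ⊥
  ti : ∀ g x : G, x ∈ M → x ≠ 1 → g * x * g⁻¹ ∈ M → g ∈ normalizer (M : Set G)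
  zz : z * z = 1
  z1 : z ≠ 1
  zN : z ∈ normalizer (M : Set G)
  fac : ∀ g ∈ normalizer (M : Set G), ∃ y ∈ M, ∃ h ∈ normalizer (M : Set G),
    h * z = z * h ∧ g = y * h
  odd : ∀ x ∈ M, x ≠ 1 → ∀ t : G, t * t = 1 → t * x = x * t → t = 1

theorem conj_mem {g x : G} (hg : g ∈ normalizer (M : Set G)) (hx : x ∈ M) : g * x * g⁻¹ ∈ M :=
  (Subgroup.mem_normalizer_iff.mp hg x).mp hx

theorem conj_mem' {g x : G} (hg : g ∈ normalizer (M : Set G)) (hx : x ∈ M) : g⁻¹ * x * g ∈ M := by
  have := conj_mem (inv_mem hg) hx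
  rwa [inv_inv] at this

theorem le_N {x : G} (hx : x ∈ M) : x ∈ normalizer (M : Set G) := Subgroup.le_normalizer hx

namespace Hyp

theorem exists_ne (h : Hyp M z) : ∃ x ∈ M, x ≠ 1 := by
  by_contra hcon
  push Not at hcon
  exact h.ne ((Subgroup.eq_bot_iff_forall _).mpr hcon)

/-- no involutions in `M` -/
theorem eq_one_of_sq (h : Hyp M z) {x : G} (hx : x ∈ M) (hxx : x * x = 1) : x = 1 := by
  by_contra hx1
  exact hx1 (h.odd x hx hx1 x hxx rfl)

/-- an involution of `N(M)` inverts `M` -/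
theorem inverts [Finite G] (h : Hyp M z) {t : G} (ht : t * t = 1) (ht1 : t ≠ 1)
    (htN : t ∈ normalizer (M : Set G)) {x : G} (hx : x ∈ M) : t * x * t⁻¹ = x⁻¹ := by
  have hti : t⁻¹ = t := inv_eq_of_mul_eq_one_left ht
  let φ : M → M := fun y => ⟨(y : G)⁻¹ * (t * y * t⁻¹), M.mul_mem (M.inv_mem y.2) (conj_mem htN y.2)⟩
  have hinj : Function.Injective φ := by
    intro a b hab
    have h1 : (a : G)⁻¹ * (t * a * t⁻¹) = (b : G)⁻¹ * (t * b * t⁻¹) := congrArg Subtype.val hab
    have h2 : t * ((b : G) * (a : G)⁻¹) = ((b : G) * (a : G)⁻¹) * t := by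
      have h3 : (b : G) * ((a : G)⁻¹ * (t * a * t⁻¹)) * (t * (a : G)⁻¹ * t⁻¹) * t =
          (b : G) * ((b : G)⁻¹ * (t * b * t⁻¹)) * (t * (a : G)⁻¹ * t⁻¹) * t := by rw [h1]
      have h4 : (b : G) * ((a : G)⁻¹ * (t * a * t⁻¹)) * (t * (a : G)⁻¹ * t⁻¹) * t =
          ((b : G) * (a : G)⁻¹) * t := by group
      have h5 : (b : G) * ((b : G)⁻¹ * (t * b * t⁻¹)) * (t * (a : G)⁻¹ * t⁻¹) * t =
          t * ((b : G) * (a : G)⁻¹) := by group
      rw [← h4, ← h5, h3]
    by_contra hne
    have h3 : (b : G) * (a : G)⁻¹ ≠ 1 := by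
      intro h4
      exact hne (Subtype.ext (mul_inv_eq_one.mp h4).symm)
    exact ht1 (h.odd _ (M.mul_mem b.2 (M.inv_mem a.2)) h3 t ht h2)
  obtain ⟨y, hy⟩ := (Finite.surjective_of_injective hinj) ⟨x, hx⟩
  have h1 : (y : G)⁻¹ * (t * y * t⁻¹) = x := congrArg Subtype.val hy
  rw [← h1, hti]
  have h2 : t * ((y : G)⁻¹ * (t * y * t)) * t = t * (y : G)⁻¹ * t * y * (t * t) := by group
  have h3 : ((y : G)⁻¹ * (t * y * t))⁻¹ = t⁻¹ * (y : G)⁻¹ * t⁻¹ * y := by group
  rw [h2, h3, ht, hti, mul_one]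

theorem z_inv (h : Hyp M z) : z⁻¹ = z := inv_eq_of_mul_eq_one_left h.zz

theorem z_conj [Finite G] (h : Hyp M z) {x : G} (hx : x ∈ M) : z * x * z = x⁻¹ := by
  have := h.inverts h.zz h.z1 h.zN hx
  rwa [h.z_inv] at this

/-- `z x = x⁻¹ z` -/
theorem z_mul [Finite G] (h : Hyp M z) {x : G} (hx : x ∈ M) : z * x = x⁻¹ * z := by
  have h1 := h.z_conj hx
  rw [← h1, mul_assoc, h.zz, mul_one]

/-- `M` is commutative -/
theorem comm [Finite G] (h : Hyp M z) {x y : G} (hx : x ∈ M) (hy : y ∈ M) : x * y = y * x := by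
  have h1 := h.inverts h.zz h.z1 h.zN (M.mul_mem hx hy)
  have h2 : z * (x * y) * z⁻¹ = (z * x * z⁻¹) * (z * y * z⁻¹) := by group
  rw [h2, h.inverts h.zz h.z1 h.zN hx, h.inverts h.zz h.z1 h.zN hy] at h1
  have h3 : (x⁻¹ * y⁻¹)⁻¹ = (x * y)⁻¹⁻¹ := by rw [h1]
  rw [inv_inv, mul_inv_rev, inv_inv, inv_inv] at h3
  exact h3.symm

/-- an element of `M` commuting with `z` is trivial -/
theorem eq_one_of_comm_z (h : Hyp M z) {x : G} (hx : x ∈ M) (hc : z * x = x * z) : x = 1 := by
  by_contra hx1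
  exact h.z1 (h.odd x hx hx1 z h.zz hc)

/-- the involutions of `N(M)` are in `z M` -/
theorem exists_eq_of_mem_N [Finite G] (h : Hyp M z) {t : G} (ht : t * t = 1) (ht1 : t ≠ 1)
    (htN : t ∈ normalizer (M : Set G)) : ∃ y ∈ M, t = y * z := by
  obtain ⟨y, hy, k, hkN, hkz, htk⟩ := h.fac t htN
  have hinv := fun x hx => h.inverts ht ht1 htN (x := x) hx
  have hk : ∀ x ∈ M, k * x * k⁻¹ = x⁻¹ := by
    intro x hx
    have h1 : k = y⁻¹ * t := by rw [htk]; group
    have h2 : k * x * k⁻¹ = y⁻¹ * (t * x * t⁻¹) * y := by rw [h1]; group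
    rw [h2, hinv x hx]
    have h3 := h.comm (M.inv_mem hy) (M.inv_mem hx)
    rw [h3]; group
  have hkk : k * k = 1 := by
    have h1 : t * t = (y * (k * y * k⁻¹)) * (k * k) := by rw [htk]; group
    rw [ht, hk y hy, mul_inv_cancel, one_mul] at h1
    exact h1.symm
  obtain ⟨x, hx, hx1⟩ := h.exists_ne
  have hkz1 : k * z = 1 := by
    refine h.odd x hx hx1 (k * z) ?_ ?_
    · calc k * z * (k * z) = k * (z * k) * z := by group
        _ = k * (k * z) * z := by rw [hkz]
        _ = (k * k) * (z * z) := by group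
        _ = 1 := by rw [hkk, h.zz, one_mul]
    · have h1 : k * x⁻¹ = x * k := by
        have := hk x⁻¹ (M.inv_mem hx)
        rw [inv_inv] at this
        exact mul_inv_eq_iff_eq_mul.mp this
      calc k * z * x = k * (z * x) := by group
        _ = k * (x⁻¹ * z) := by rw [h.z_mul hx]
        _ = (k * x⁻¹) * z := by group
        _ = x * (k * z) := by rw [h1]; group
  refine ⟨y, hy, ?_⟩
  rw [htk]
  have h1 : k = z⁻¹ := eq_inv_of_mul_eq_one_left hkz1
  rw [h1, h.z_inv]

/-- elements of `M z` are involutions -/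
theorem mul_z_sq [Finite G] (h : Hyp M z) {y : G} (hy : y ∈ M) : (y * z) * (y * z) = 1 := by
  calc y * z * (y * z) = y * (z * y * z) := by group
    _ = 1 := by rw [h.z_conj hy]; group

theorem z_not_mem (h : Hyp M z) : z ∉ M := fun hz => h.z1 (h.eq_one_of_sq hz h.zz)

theorem mul_z_ne (h : Hyp M z) {y : G} (hy : y ∈ M) : y * z ≠ 1 := by
  intro h1
  apply h.z_not_mem
  have : z = y⁻¹ := eq_inv_of_mul_eq_one_right h1
  rw [this]
  exact M.inv_mem hy

theorem mul_z_mem (h : Hyp M z) {y : G} (hy : y ∈ M) : y * z ∈ normalizer (M : Set G) :=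
  mul_mem (le_N hy) h.zN

/-- elements of odd order have square roots -/
theorem exists_sqrt [Finite G] (h : Hyp M z) {y : G} (hy : y ∈ M) : ∃ w ∈ M, w * w = y := by
  let φ : M → M := fun w => w * w
  have hinj : Function.Injective φ := by
    intro a b hab
    have h1 : (a : G) * a = b * b := congrArg Subtype.val hab
    have h2 := h.comm a.2 b.2
    have h3 : ((a : G) * (b : G)⁻¹) * ((a : G) * (b : G)⁻¹) = 1 := by
      have h4 : (b : G)⁻¹ * a = a * (b : G)⁻¹ := h.comm (M.inv_mem b.2) a.2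
      calc ((a : G) * (b : G)⁻¹) * ((a : G) * (b : G)⁻¹) = a * ((b : G)⁻¹ * a) * (b : G)⁻¹ := by group
        _ = a * (a * (b : G)⁻¹) * (b : G)⁻¹ := by rw [h4]
        _ = (a * a) * ((b : G) * b)⁻¹ := by group
        _ = 1 := by rw [h1]; group
    have h5 := h.eq_one_of_sq (M.mul_mem a.2 (M.inv_mem b.2)) h3
    exact Subtype.ext (mul_inv_eq_one.mp h5)
  obtain ⟨w, hw⟩ := (Finite.surjective_of_injective hinj) ⟨y, hy⟩
  exact ⟨w, w.2, congrArg Subtype.val hw⟩

/-- two involutions outside `N(M)` in the same coset of `M` are equal -/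
theorem eq_of_mul_mem (h : Hyp M z) {u v : G} (hu : u * u = 1) (hv : v * v = 1)
    (huN : u ∉ normalizer (M : Set G)) (huv : u * v ∈ M) : u = v := by
  by_contra hne
  have hui : u⁻¹ = u := inv_eq_of_mul_eq_one_left hu
  have hvi : v⁻¹ = v := inv_eq_of_mul_eq_one_left hv
  apply huN
  refine h.ti u (u * v) huv ?_ ?_
  · intro h1
    apply hne
    rw [← hvi]
    exact eq_inv_of_mul_eq_one_left h1
  · have h1 : u * (u * v) * u⁻¹ = (u * v)⁻¹ := by
      rw [mul_inv_rev, hui, hvi, ← mul_assoc, hu, one_mul]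
    rw [h1]
    exact M.inv_mem huv

end Hyp

end Cfsg.Agent.H272.TIInv
end

-- part: H272/TIInv/Count
section
/-!
If there are more involutions than cosets of `M`, every coset of `M` outside `N(M)` contains an involution.
-/

set_option autoImplicit false

namespace Cfsg.Agent.H272.TIInv

open Subgroup

variable {G : Type*} [Group G] {M : Subgroup G} {z : G}

namespace Hyp

theorem card_I [Finite G] (h : Hyp M z) : Nat.card {g : G // g * g = 1 ∧ g ≠ 1} =
    Nat.card M + Nat.card {g : G // g * g = 1 ∧ g ∉ normalizer (M : Set G)} := by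
  let f : M ⊕ {g : G // g * g = 1 ∧ g ∉ normalizer (M : Set G)} → {g : G // g * g = 1 ∧ g ≠ 1} :=
    fun s => match s with
      | Sum.inl y => ⟨y * z, h.mul_z_sq y.2, h.mul_z_ne y.2⟩
      | Sum.inr u => ⟨u, u.2.1, fun h1 => u.2.2 (by rw [h1]; exact one_mem _)⟩
  have hf : Function.Bijective f := by
    constructor
    · rintro (a | a) (b | b) hab
      · have h1 : (a : G) * z = b * z := congrArg Subtype.val hab
        rw [Subtype.ext (mul_right_cancel h1)]
      · exfalso
        have h1 : (a : G) * z = b := congrArg Subtype.val hab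
        exact b.2.2 (h1 ▸ h.mul_z_mem a.2)
      · exfalso
        have h1 : (a : G) = b * z := congrArg Subtype.val hab
        exact a.2.2 (h1 ▸ h.mul_z_mem b.2)
      · have h1 : ((f (Sum.inr a)) : G) = (f (Sum.inr b)) := by rw [hab]
        have h2 : (a : G) = b := h1
        rw [Subtype.ext h2]
    · rintro ⟨g, hg, hg1⟩
      by_cases hgN : g ∈ normalizer (M : Set G)
      · obtain ⟨y, hy, hyg⟩ := h.exists_eq_of_mem_N hg hg1 hgN
        exact ⟨Sum.inl ⟨y, hy⟩, Subtype.ext hyg.symm⟩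
      · exact ⟨Sum.inr ⟨g, hg, hgN⟩, rfl⟩
  rw [← Nat.card_congr (Equiv.ofBijective f hf), Nat.card_sum]

theorem card_compl [Finite G] (H : Subgroup G) : Nat.card H + Nat.card {g : G // g ∉ H} = Nat.card G := by
  classical
  rw [← Nat.card_congr (Equiv.sumCompl (fun g : G => g ∈ H)), Nat.card_sum]

/-- the map `(u, y) ↦ u y` -/
theorem mul_not_mem {x y : G} (hx : x ∉ normalizer (M : Set G)) (hy : y ∈ M) :
    x * y ∉ normalizer (M : Set G) := by
  intro h1
  apply hx
  have := mul_mem h1 (le_N (M.inv_mem hy))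
  rwa [mul_inv_cancel_right] at this

theorem mul_not_mem' {x y : G} (hx : x ∉ normalizer (M : Set G)) (hy : y ∈ M) :
    y * x ∉ normalizer (M : Set G) := by
  intro h1
  apply hx
  have := mul_mem (le_N (M.inv_mem hy)) h1
  rwa [inv_mul_cancel_left] at this

theorem inj_aux (h : Hyp M z) {u v y w : G} (hu : u * u = 1) (hv : v * v = 1)
    (huN : u ∉ normalizer (M : Set G)) (hy : y ∈ M) (hw : w ∈ M) (he : u * y = v * w) :
    u = v ∧ y = w := by
  have hvi : v⁻¹ = v := inv_eq_of_mul_eq_one_left hv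
  have hui : u⁻¹ = u := inv_eq_of_mul_eq_one_left hu
  have h1 : u * v ∈ M := by
    have h2 : u * v = y * w⁻¹ := by
      have h3 : u * (u * y) * w⁻¹ = u * (v * w) * w⁻¹ := by rw [he]
      rw [← mul_assoc u u y, hu, one_mul, mul_assoc u (v * w), mul_inv_cancel_right] at h3
      exact h3.symm
    rw [h2]
    exact M.mul_mem hy (M.inv_mem hw)
  have h2 := h.eq_of_mul_mem hu hv huN h1
  subst h2
  exact ⟨rfl, mul_left_cancel he⟩

/-- every coset of `M` outside `N(M)` contains an involution -/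
theorem cover [Finite G] (h : Hyp M z) (hI : M.index < Nat.card {g : G // g * g = 1 ∧ g ≠ 1}) {x : G}
    (hx : x ∉ normalizer (M : Set G)) : ∃ y ∈ M, (x * y) * (x * y) = 1 := by
  by_contra hcon
  push Not at hcon
  let f : ({g : G // g * g = 1 ∧ g ∉ normalizer (M : Set G)} × M) ⊕ (M × M) →
      {g : G // g ∉ normalizer (M : Set G)} := fun s => match s with
    | Sum.inl p => ⟨p.1 * p.2, mul_not_mem p.1.2.2 p.2.2⟩
    | Sum.inr p => ⟨p.1 * x * p.2, mul_not_mem (mul_not_mem' hx p.1.2) p.2.2⟩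
  have hcross : ∀ (u : {g : G // g * g = 1 ∧ g ∉ normalizer (M : Set G)}) (y a b : M),
      (u : G) * y ≠ a * x * b := by
    intro u y a b he
    refine hcon (b * (y : G)⁻¹ * a) (M.mul_mem (M.mul_mem b.2 (M.inv_mem y.2)) a.2) ?_
    have h1 : x * (b * (y : G)⁻¹ * a) = (a : G)⁻¹ * u * a := by
      have h2 : x = (a : G)⁻¹ * ((u : G) * y) * (b : G)⁻¹ := by rw [he]; group
      rw [h2]; group
    rw [h1]
    calc (a : G)⁻¹ * u * a * ((a : G)⁻¹ * u * a) = (a : G)⁻¹ * (u * u) * a := by group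
      _ = 1 := by rw [u.2.1]; group
  have hf : Function.Injective f := by
    rintro (⟨u, y⟩ | ⟨a, b⟩) (⟨v, w⟩ | ⟨c, d⟩) hab
    · have h1 : (u : G) * y = v * w := congrArg Subtype.val hab
      obtain ⟨h2, h3⟩ := h.inj_aux u.2.1 v.2.1 u.2.2 y.2 w.2 h1
      rw [Subtype.ext h2, Subtype.ext h3]
    · exact absurd (congrArg Subtype.val hab) (hcross u y c d)
    · exact absurd (congrArg Subtype.val hab).symm (hcross v w a b)
    · have h1 : (a : G) * x * b = c * x * d := congrArg Subtype.val hab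
      have h2 : x⁻¹ * ((c : G)⁻¹ * a) * x⁻¹⁻¹ = d * (b : G)⁻¹ := by
        have h3 : x⁻¹ * (c : G)⁻¹ * (a * x * b) * (b : G)⁻¹ = x⁻¹ * (c : G)⁻¹ * (c * x * d) * (b : G)⁻¹ := by
          rw [h1]
        have h4 : x⁻¹ * (c : G)⁻¹ * (a * x * b) * (b : G)⁻¹ = x⁻¹ * ((c : G)⁻¹ * a) * x⁻¹⁻¹ := by group
        have h5 : x⁻¹ * (c : G)⁻¹ * (c * x * d) * (b : G)⁻¹ = d * (b : G)⁻¹ := by group
        rw [← h4, ← h5, h3]
      have h3 : (c : G)⁻¹ * a = 1 := by
        by_contra hne
        apply hx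
        have := h.ti x⁻¹ _ (M.mul_mem (M.inv_mem c.2) a.2) hne
          (by rw [h2]; exact M.mul_mem d.2 (M.inv_mem b.2))
        have h4 := inv_mem this
        rwa [inv_inv] at h4
      have h4 : (a : G) = c := (inv_mul_eq_one.mp h3).symm
      rw [h4] at h1
      have h5 : (b : G) = d := mul_left_cancel h1
      rw [Subtype.ext h4, Subtype.ext h5]
  have h1 := Nat.card_le_card_of_injective f hf
  rw [Nat.card_sum, Nat.card_prod, Nat.card_prod] at h1
  have h2 := card_compl (normalizer (M : Set G))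
  have h3 : 0 < Nat.card (normalizer (M : Set G)) := Nat.card_pos
  have h4 := M.card_mul_index
  rw [h.card_I] at hI
  have h5 : 0 < Nat.card M := Nat.card_pos
  have h6 : Nat.card M * M.index < Nat.card M * (Nat.card M +
      Nat.card {g : G // g * g = 1 ∧ g ∉ normalizer (M : Set G)}) := Nat.mul_lt_mul_of_pos_left hI h5
  rw [h4] at h6
  nlinarith

/-- counting when every coset outside `N(M)` contains an involution -/
theorem card_of_cover [Finite G] (h : Hyp M z)
    (hcov : ∀ x : G, x ∉ normalizer (M : Set G) → ∃ y ∈ M, (x * y) * (x * y) = 1) :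
    Nat.card {g : G // g * g = 1 ∧ g ∉ normalizer (M : Set G)} * Nat.card M +
      Nat.card (normalizer (M : Set G)) = Nat.card G := by
  let f : ({g : G // g * g = 1 ∧ g ∉ normalizer (M : Set G)} × M) →
      {g : G // g ∉ normalizer (M : Set G)} := fun p => ⟨p.1 * p.2, mul_not_mem p.1.2.2 p.2.2⟩
  have hf : Function.Bijective f := by
    constructor
    · rintro ⟨u, y⟩ ⟨v, w⟩ hab
      have h1 : (u : G) * y = v * w := congrArg Subtype.val hab
      obtain ⟨h2, h3⟩ := h.inj_aux u.2.1 v.2.1 u.2.2 y.2 w.2 h1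
      rw [Subtype.ext h2, Subtype.ext h3]
    · rintro ⟨x, hx⟩
      obtain ⟨y, hy, hxy⟩ := hcov x hx
      refine ⟨(⟨x * y, hxy, mul_not_mem hx hy⟩, ⟨y⁻¹, M.inv_mem hy⟩), Subtype.ext ?_⟩
      show x * y * y⁻¹ = x
      group
  have h1 := Nat.card_congr (Equiv.ofBijective f hf)
  rw [Nat.card_prod] at h1
  rw [h1, add_comm]
  exact card_compl _

end Hyp

end Cfsg.Agent.H272.TIInv
end

-- part: H272/TIInv/Cov
section
/-!
Structure when every coset of `M` outside `N(M)` contains an involution.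
-/

set_option autoImplicit false

namespace Cfsg.Agent.H272.TIInv

open Subgroup

variable {G : Type*} [Group G] {M : Subgroup G} {z : G}

structure Cov (M : Subgroup G) (z : G) : Prop extends Hyp M z where
  cov : ∀ x : G, x ∉ normalizer (M : Set G) → ∃ y ∈ M, (x * y) * (x * y) = 1

theorem Hyp.odd_card [Finite G] (h : Hyp M z) : Odd (Nat.card M) := by
  rw [← Nat.not_even_iff_odd, even_iff_two_dvd]
  intro h2
  have : Fact (Nat.Prime 2) := ⟨Nat.prime_two⟩
  obtain ⟨x, hx⟩ := exists_prime_orderOf_dvd_card' (G := M) 2 h2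
  have h3 : x * x = 1 := by
    rw [← pow_two, ← hx]; exact pow_orderOf_eq_one _
  have h4 := h.eq_one_of_sq x.2 (congrArg Subtype.val h3)
  have h5 : x = 1 := Subtype.ext h4
  rw [h5, orderOf_one] at hx
  norm_num at hx

/-- `[t, k] ∈ M` for an involution `t ∈ N(M)` -/
theorem Hyp.comm_mem [Finite G] (h : Hyp M z) {t k : G} (ht : t * t = 1) (ht1 : t ≠ 1)
    (htN : t ∈ normalizer (M : Set G)) (hk : k ∈ normalizer (M : Set G)) :
    t * k * t⁻¹ * k⁻¹ ∈ M := by
  obtain ⟨y, hy, rfl⟩ := h.exists_eq_of_mem_N ht ht1 htN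
  obtain ⟨a, ha, b, hb, hbz, rfl⟩ := h.fac k hk
  have h1 : z * (a * b) * z⁻¹ * (a * b)⁻¹ = a⁻¹ * a⁻¹ := by
    have h2 : z * (a * b) = a⁻¹ * b * z := by
      rw [← mul_assoc, h.z_mul ha, mul_assoc, ← hbz]; group
    rw [h2]; group
  have h2 : y * z * (a * b) * (y * z)⁻¹ * (a * b)⁻¹ =
      y * (z * (a * b) * z⁻¹ * (a * b)⁻¹) * ((a * b) * y⁻¹ * (a * b)⁻¹) := by group
  rw [h2, h1]
  exact M.mul_mem (M.mul_mem hy (M.mul_mem (M.inv_mem ha) (M.inv_mem ha)))
    (conj_mem hk (M.inv_mem hy))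

namespace Cov

/-- each element of `N(M)` is congruent mod `M` to one inverted by `u` -/
theorem exists_inverted (h : Cov M z) {u k : G} (hu : u * u = 1)
    (huN : u ∉ normalizer (M : Set G)) (hk : k ∈ normalizer (M : Set G)) :
    ∃ y ∈ M, u * (k * y) * u = (k * y)⁻¹ := by
  have h1 : u * k ∉ normalizer (M : Set G) := by
    intro h2
    apply huN
    have := mul_mem h2 (inv_mem hk)
    rwa [mul_inv_cancel_right] at this
  obtain ⟨y, hy, hxy⟩ := h.cov _ h1
  refine ⟨y, hy, ?_⟩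
  have h2 : u * (k * y) * u * (k * y) = 1 := by rw [← hxy]; group
  exact eq_inv_of_mul_eq_one_left h2

/-- an involution of `N(M)` commuting with `u` -/
theorem exists_comm [Finite G] (h : Cov M z) {u : G} (hu : u * u = 1)
    (huN : u ∉ normalizer (M : Set G)) : ∃ y ∈ M, u * (y * z) = y * z * u := by
  obtain ⟨y, hy, hyu⟩ := h.exists_inverted hu huN h.zN
  have h1 : z * y = y⁻¹ * z := h.z_mul hy
  rw [h1] at hyu
  refine ⟨y⁻¹, M.inv_mem hy, ?_⟩
  have h2 : (y⁻¹ * z)⁻¹ = y⁻¹ * z := inv_eq_of_mul_eq_one_left (h.mul_z_sq (M.inv_mem hy))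
  rw [h2] at hyu
  calc u * (y⁻¹ * z) = u * (y⁻¹ * z) * (u * u) := by rw [hu, mul_one]
    _ = (u * (y⁻¹ * z) * u) * u := by group
    _ = y⁻¹ * z * u := by rw [hyu]

theorem eq_one_of_conj_mem [Finite G] (h : Cov M z) {u w : G} (hu : u * u = 1)
    (huN : u ∉ normalizer (M : Set G)) (hw : w ∈ M) (huw : u * w * u ∈ normalizer (M : Set G)) :
    w = 1 := by
  obtain ⟨y, hy, hyu⟩ := h.exists_comm hu huN
  set t := y * z with ht
  have htt : t * t = 1 := h.mul_z_sq hy
  have ht1 : t ≠ 1 := h.mul_z_ne hy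
  have htN : t ∈ normalizer (M : Set G) := h.mul_z_mem hy
  have hti : t⁻¹ = t := inv_eq_of_mul_eq_one_left htt
  have hui : u⁻¹ = u := inv_eq_of_mul_eq_one_left hu
  set w' := u * w * u with hw'
  have h1 : t * w' * t⁻¹ = w'⁻¹ := by
    have h2 := h.inverts htt ht1 htN hw
    rw [hti] at h2
    calc t * w' * t⁻¹ = (t * u) * w * (u * t) := by rw [hw', hti]; group
      _ = (u * t) * w * (t * u) := by rw [← hyu]
      _ = u * (t * w * t) * u := by group
      _ = w'⁻¹ := by rw [h2, hw', mul_inv_rev, mul_inv_rev, hui]; group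
  have h2 := h.comm_mem htt ht1 htN huw
  rw [h1] at h2
  have h3 : w' * w' ∈ M := by
    have := M.inv_mem h2
    rwa [mul_inv_rev, inv_inv] at this
  have h4 : w' ∈ M := by
    obtain ⟨k, hk⟩ := h.odd_card
    have h5 : w ^ Nat.card M = 1 := by
      have := pow_card_eq_one' (G := M) (x := ⟨w, hw⟩)
      exact congrArg Subtype.val this
    have h6 : ∀ n : ℕ, w' ^ n = u * w ^ n * u := by
      intro n
      have h7 : w' = u * w * u⁻¹ := by rw [hui]
      rw [h7, conj_pow, hui]
    have h7 : w' ^ (2 * k + 2) = w' := by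
      rw [h6, show 2 * k + 2 = Nat.card M + 1 by omega, pow_succ, h5, one_mul]
    have h8 : w' ^ (2 * k + 2) = (w' * w') ^ (k + 1) := by
      rw [← pow_two, ← pow_mul]; ring_nf
    rw [← h7, h8]
    exact M.pow_mem h3 _
  by_contra hw1
  exact huN (h.ti u w hw hw1 (by rw [hui]; exact h4))

/-- `u` inverts `N ∩ N^u` -/
theorem inv_of_mem [Finite G] (h : Cov M z) {u k : G} (hu : u * u = 1)
    (huN : u ∉ normalizer (M : Set G)) (hk : k ∈ normalizer (M : Set G))
    (huk : u * k * u ∈ normalizer (M : Set G)) : u * k * u = k⁻¹ := by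
  obtain ⟨y, hy, hyu⟩ := h.exists_inverted hu huN hk
  have hy1 : y = 1 := by
    refine h.eq_one_of_conj_mem hu huN hy ?_
    have h1 : u * y * u = (u * k * u)⁻¹ * (u * (k * y) * u) := by
      have hui : u⁻¹ = u := inv_eq_of_mul_eq_one_left hu
      calc u * y * u = u * k⁻¹ * (u * u) * k * y * u := by rw [hu]; group
        _ = (u * k * u)⁻¹ * (u * (k * y) * u) := by
          rw [mul_inv_rev, mul_inv_rev, hui]; group
    rw [h1, hyu]
    exact mul_mem (inv_mem huk) (inv_mem (mul_mem hk (le_N hy)))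
  rwa [hy1, mul_one] at hyu

theorem comm_of_mem [Finite G] (h : Cov M z) {u k : G} (hu : u * u = 1)
    (huN : u ∉ normalizer (M : Set G)) (huz : u * z = z * u) (hk : k ∈ normalizer (M : Set G))
    (huk : u * k * u ∈ normalizer (M : Set G)) : k * z = z * k := by
  have huzu : u * z * u = z := by rw [huz, mul_assoc, hu, mul_one]
  have h1 : u * (k * z) * u = (u * k * u) * z := by
    calc u * (k * z) * u = u * k * (u * u) * z * u := by rw [hu]; group
      _ = (u * k * u) * (u * z * u) := by group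
      _ = (u * k * u) * z := by rw [huzu]
  have h2 : u * (k * z) * u = (k * z)⁻¹ := by
    refine h.inv_of_mem hu huN (mul_mem hk h.zN) ?_
    rw [h1]
    exact mul_mem huk h.zN
  rw [h1, h.inv_of_mem hu huN hk huk, mul_inv_rev, h.z_inv] at h2
  -- k⁻¹ z = z k⁻¹
  calc k * z = k * (z * k⁻¹) * k := by group
    _ = k * (k⁻¹ * z) * k := by rw [h2]
    _ = z * k := by group

theorem inv_of_comm [Finite G] (h : Cov M z) {u k : G} (hu : u * u = 1)
    (huN : u ∉ normalizer (M : Set G)) (huz : u * z = z * u) (hk : k ∈ normalizer (M : Set G))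
    (hkz : k * z = z * k) : u * k * u = k⁻¹ := by
  obtain ⟨y, hy, hyu⟩ := h.exists_inverted hu huN hk
  have hkyN := mul_mem hk (le_N hy)
  have h1 := h.comm_of_mem hu huN huz hkyN (by rw [hyu]; exact inv_mem hkyN)
  have hy1 : y = 1 := by
    refine h.eq_one_of_comm_z hy ?_
    have h2 : k * (y * z) = k * (z * y) := by
      calc k * (y * z) = k * y * z := by group
        _ = z * (k * y) := h1
        _ = (z * k) * y := by group
        _ = k * (z * y) := by rw [← hkz]; group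
    exact (mul_left_cancel h2).symm
  rwa [hy1, mul_one] at hyu

/-- elements of `C(z)` outside `N(M)` are involutions -/
theorem sq_of_comm [Finite G] (h : Cov M z) {x : G} (hx : x ∉ normalizer (M : Set G))
    (hxz : x * z = z * x) : x * x = 1 := by
  obtain ⟨y, hy, hv⟩ := h.cov x hx
  set v := x * y with hvdef
  have hvi : v⁻¹ = v := inv_eq_of_mul_eq_one_left hv
  have hvN : v ∉ normalizer (M : Set G) := Hyp.mul_not_mem hx hy
  have h1 : v * z * v = y⁻¹ * z * y := by
    have h2 : v * z * v = v⁻¹ * z * v := by rw [hvi]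
    rw [h2, hvdef]
    calc (x * y)⁻¹ * z * (x * y) = y⁻¹ * x⁻¹ * (z * x) * y := by group
      _ = y⁻¹ * z * y := by rw [← hxz]; group
  have h2 := h.inv_of_mem hv hvN h.zN (by
    rw [h1]; exact mul_mem (mul_mem (inv_mem (le_N hy)) h.zN) (le_N hy))
  rw [h1, h.z_inv] at h2
  have hy1 : y = 1 := by
    refine h.eq_one_of_comm_z hy ?_
    calc z * y = y * (y⁻¹ * z * y) := by group
      _ = y * z := by rw [h2]
  rw [hvdef, hy1, mul_one] at hv
  exact hv

/-- every involution outside `N(M)` is `M`-conjugate into `C(z)` -/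
theorem exists_conj_comm [Finite G] (h : Cov M z) {u : G} (hu : u * u = 1)
    (huN : u ∉ normalizer (M : Set G)) : ∃ y ∈ M, (y⁻¹ * u * y) * z = z * (y⁻¹ * u * y) := by
  obtain ⟨y, hy, hyu⟩ := h.exists_comm hu huN
  obtain ⟨w, hw, hww⟩ := h.exists_sqrt hy
  refine ⟨w, hw, ?_⟩
  -- `y z = w z w⁻¹`
  have h1 : y * z = w * z * w⁻¹ := by
    have h2 : z * w⁻¹ = w * z := by
      have := h.z_mul (M.inv_mem hw)
      rwa [inv_inv] at this
    rw [mul_assoc, h2, ← mul_assoc, hww]
  rw [h1] at hyu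
  calc (w⁻¹ * u * w) * z = w⁻¹ * (u * (w * z * w⁻¹)) * w := by group
    _ = w⁻¹ * (w * z * w⁻¹ * u) * w := by rw [hyu]
    _ = z * (w⁻¹ * u * w) := by group

/-- number of involutions outside `N(M)` -/
theorem card_J [Finite G] (h : Cov M z) :
    Nat.card {g : G // g * g = 1 ∧ g ∉ normalizer (M : Set G)} =
      Nat.card M * Nat.card {x : G // x ∉ normalizer (M : Set G) ∧ x * z = z * x} := by
  let f : M × {x : G // x ∉ normalizer (M : Set G) ∧ x * z = z * x} →
      {g : G // g * g = 1 ∧ g ∉ normalizer (M : Set G)} := fun p =>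
    ⟨p.1 * p.2 * (p.1 : G)⁻¹, by
      constructor
      · have h1 := h.sq_of_comm p.2.2.1 p.2.2.2
        calc (p.1 : G) * p.2 * (p.1 : G)⁻¹ * (p.1 * p.2 * (p.1 : G)⁻¹) =
            p.1 * ((p.2 : G) * p.2) * (p.1 : G)⁻¹ := by group
          _ = 1 := by rw [h1]; group
      · exact Hyp.mul_not_mem (Hyp.mul_not_mem' p.2.2.1 p.1.2) (M.inv_mem p.1.2)⟩
  have hf : Function.Bijective f := by
    constructor
    · rintro ⟨y, x⟩ ⟨y', x'⟩ hab
      have h1 : (y : G) * x * (y : G)⁻¹ = y' * x' * (y' : G)⁻¹ := congrArg Subtype.val hab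
      set a := (y' : G)⁻¹ * y with ha
      have haM : a ∈ M := M.mul_mem (M.inv_mem y'.2) y.2
      have h2 : a * x * a⁻¹ = x' := by
        calc a * x * a⁻¹ = (y' : G)⁻¹ * (y * x * (y : G)⁻¹) * y' := by rw [ha]; group
          _ = x' := by rw [h1]; group
      have hx' := h.sq_of_comm x'.2.1 x'.2.2
      have h3 : (x' : G) * (a * z * a⁻¹) * x' = a * z * a⁻¹ := by
        have hx := h.sq_of_comm x.2.1 x.2.2
        rw [← h2]
        calc a * x * a⁻¹ * (a * z * a⁻¹) * (a * x * a⁻¹) = a * (x * z) * x * a⁻¹ := by group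
          _ = a * (z * x) * x * a⁻¹ := by rw [x.2.2]
          _ = a * z * (x * x) * a⁻¹ := by group
          _ = a * z * a⁻¹ := by rw [hx, mul_one]
      have haz : a * z * a⁻¹ ∈ normalizer (M : Set G) :=
        mul_mem (mul_mem (le_N haM) h.zN) (inv_mem (le_N haM))
      have h4 := h.comm_of_mem hx' x'.2.1 x'.2.2 haz (by rw [h3]; exact haz)
      have h5 : a * z * a⁻¹ = a * a * z := by
        have := h.z_mul (M.inv_mem haM)
        rw [inv_inv] at this
        rw [mul_assoc, this]; group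
      rw [h5] at h4
      have h6 : a * a = 1 := by
        refine h.eq_one_of_comm_z (M.mul_mem haM haM) ?_
        have h7 : a * a * z * z = z * (a * a * z) := h4
        have h8 : a * a * z * z * z = z * (a * a * z) * z := by rw [h7]
        have h9 : z * (a * a * z) * z = z * (a * a) * (z * z) := by group
        rw [h9, h.zz, mul_one, mul_assoc (a * a) z z, h.zz, mul_one] at h8
        exact h8.symm
      have h7 : a = 1 := h.eq_one_of_sq haM h6
      have h8 : (y : G) = y' := (inv_mul_eq_one.mp (ha.symm.trans h7)).symm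
      have h9 : (x : G) = x' := by
        rw [h7] at h2
        simpa using h2
      rw [Subtype.ext h8, Subtype.ext h9]
    · rintro ⟨u, hu, huN⟩
      obtain ⟨y, hy, hyz⟩ := h.exists_conj_comm hu huN
      refine ⟨(⟨y, hy⟩, ⟨y⁻¹ * u * y, Hyp.mul_not_mem (Hyp.mul_not_mem' huN (M.inv_mem hy)) hy, hyz⟩),
        Subtype.ext ?_⟩
      show y * (y⁻¹ * u * y) * y⁻¹ = u
      group
  rw [← Nat.card_congr (Equiv.ofBijective f hf), Nat.card_prod]

end Cov

/-- `H = C(z) ∩ N(M)` -/
def HH (M : Subgroup G) (z : G) : Subgroup G :=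
  normalizer (M : Set G) ⊓ centralizer ({z} : Set G)

theorem mem_HH {x : G} : x ∈ HH M z ↔ x ∈ normalizer (M : Set G) ∧ x * z = z * x := by
  rw [HH, Subgroup.mem_inf, Subgroup.mem_centralizer_singleton_iff]

theorem Hyp.card_N [Finite G] (h : Hyp M z) :
    Nat.card (normalizer (M : Set G)) = Nat.card M * Nat.card (HH M z) := by
  let f : M × HH M z → normalizer (M : Set G) := fun p =>
    ⟨p.1 * p.2, mul_mem (le_N p.1.2) (mem_HH.mp p.2.2).1⟩
  have hf : Function.Bijective f := by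
    constructor
    · rintro ⟨a, b⟩ ⟨c, d⟩ hab
      have h1 : (a : G) * b = c * d := congrArg Subtype.val hab
      have h2 : (c : G)⁻¹ * a = d * (b : G)⁻¹ := by
        calc (c : G)⁻¹ * a = (c : G)⁻¹ * (a * b) * (b : G)⁻¹ := by group
          _ = d * (b : G)⁻¹ := by rw [h1]; group
      have h3 : (c : G)⁻¹ * a = 1 := by
        refine h.eq_one_of_comm_z (M.mul_mem (M.inv_mem c.2) a.2) ?_
        have h4 : (d : G) * (b : G)⁻¹ ∈ HH M z := mul_mem d.2 (inv_mem b.2)
        rw [h2]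
        exact (mem_HH.mp h4).2.symm
      have h4 : (a : G) = c := (inv_mul_eq_one.mp h3).symm
      rw [h4] at h1
      have h5 : (b : G) = d := mul_left_cancel h1
      rw [Subtype.ext h4, Subtype.ext h5]
    · rintro ⟨g, hg⟩
      obtain ⟨y, hy, k, hk, hkz, rfl⟩ := h.fac g hg
      exact ⟨(⟨y, hy⟩, ⟨k, mem_HH.mpr ⟨hk, hkz⟩⟩), rfl⟩
  rw [← Nat.card_congr (Equiv.ofBijective f hf), Nat.card_prod]

/-- the order of `G` -/
theorem Cov.card_G [Finite G] (h : Cov M z) :
    Nat.card G = Nat.card M * Nat.card M * Nat.card {x : G // x ∉ normalizer (M : Set G) ∧ x * z = z * x}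
      + Nat.card M * Nat.card (HH M z) := by
  rw [← h.card_of_cover h.cov, h.card_J, h.card_N]
  ring

/-- the order of `C(z)` -/
theorem Cov.card_C [Finite G] (_h : Cov M z) :
    Nat.card (centralizer ({z} : Set G)) = Nat.card (HH M z) +
      Nat.card {x : G // x ∉ normalizer (M : Set G) ∧ x * z = z * x} := by
  classical
  have h1 := Nat.card_congr (Equiv.sumCompl
    (fun g : centralizer ({z} : Set G) => (g : G) ∈ normalizer (M : Set G)))
  rw [← h1, Nat.card_sum]
  congr 1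
  · refine Nat.card_congr ⟨fun g => ⟨g, mem_HH.mpr ⟨g.2, ?_⟩⟩, fun g => ⟨⟨g, ?_⟩, (mem_HH.mp g.2).1⟩,
      fun g => rfl, fun g => rfl⟩
    · exact Subgroup.mem_centralizer_singleton_iff.mp g.1.2
    · exact Subgroup.mem_centralizer_singleton_iff.mpr (mem_HH.mp g.2).2
  · refine Nat.card_congr ⟨fun g => ⟨g, g.2, ?_⟩, fun g => ⟨⟨g, ?_⟩, g.2.1⟩,
      fun g => rfl, fun g => rfl⟩
    · exact Subgroup.mem_centralizer_singleton_iff.mp g.1.2
    · exact Subgroup.mem_centralizer_singleton_iff.mpr g.2.2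

/-- `|H| < |M|` -/
theorem Cov.card_HH_lt [Finite G] (h : Cov M z)
    (hI : M.index < Nat.card {g : G // g * g = 1 ∧ g ≠ 1}) : Nat.card (HH M z) < Nat.card M := by
  have h1 := h.card_of_cover h.cov
  have h2 := M.card_mul_index
  rw [h.card_I] at hI
  rw [h.card_N] at h1
  have h5 : 0 < Nat.card M := Nat.card_pos
  by_contra hcon
  push Not at hcon
  have h6 : Nat.card M * M.index < Nat.card M * (Nat.card M +
      Nat.card {g : G // g * g = 1 ∧ g ∉ normalizer (M : Set G)}) := Nat.mul_lt_mul_of_pos_left hI h5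
  rw [h2, ← h1] at h6
  nlinarith

end Cfsg.Agent.H272.TIInv
end
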